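import Cfsg.Agent.Chev.Parabolic
import Cfsg.Agent.Chev.Certs
import Mathlib.GroupTheory.Abelianization.Defs

/-! The unipotent group `U` modulo its commutator subgroup is spanned by the fundamental root groups. -/

set_option autoImplicit false

universe u

namespace Cfsg.Agent.KnownA.Lie

open Cfsg.Lie Cfsg.Agent.Chev
open scoped Matrix MatrixGroups

variable {D : ChevalleyDatum} {F : Type u} [Field F]

/-- A root is produced alone, with coefficient `±1`, by a commutator with a fundamental root. -/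
def Solo (D : ChevalleyDatum) (r : ℕ) : Prop :=
  ∃ j < D.rank, ∃ b < D.nroots, D.IsPosRoot b ∧ b ≠ D.simple j ∧
    ∃ c ∈ ([1, -1] : List ℤ), D.commTerms (D.simple j) b = [(r, c, 1, 1)]

instance (D : ChevalleyDatum) (r : ℕ) : Decidable (Solo D r) := by unfold Solo; infer_instance

/-- The condition on a pair of roots for separating the terms of its commutator formula by exponents. -/
def Separable (D : ChevalleyDatum) (a b : ℕ) : Prop :=
  (∀ c ∈ D.commTerms a b, Solo D c.1 ∨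
    (c.2.1 ∈ ([1, -1] : List ℤ) ∧ c.2.2.2 = 1 ∧ c.2.2.1 ∈ ([1, 2, 3] : List ℕ))) ∧
  (((D.commTerms a b).filter fun c => !decide (Solo D c.1)).map fun c => c.2.2.1).Nodup

instance (D : ChevalleyDatum) (a b : ℕ) : Decidable (Separable D a b) := by unfold Separable; infer_instance

/-- Every positive root which is not fundamental dies in the abelianisation. -/
def GenCert (D : ChevalleyDatum) : Prop :=
  ∀ r < D.nroots, D.IsPosRoot r → (∃ i < D.rank, r = D.simple i) ∨ Solo D r ∨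
    ∃ a < D.nroots, ∃ b < D.nroots, D.IsPosRoot a ∧ D.IsPosRoot b ∧ b ≠ a ∧
      r ∈ (D.commTerms a b).map Prod.fst ∧ Separable D a b

instance (D : ChevalleyDatum) : Decidable (GenCert D) := by unfold GenCert; infer_instance

section Kill

variable (C : Cert.{u} D) {A : Type u} [CommGroup A] (φ : ↥(D.posUnipotent F) →* A)

/-- The composite `t ↦ φ (x_r t)`. -/
noncomputable def rootVal (r : ℕ) (t : F) : A := by
  classical exact if hr : D.IsPosRoot r then φ ⟨C.xu r t, C.xu_mem_pos hr t⟩ else 1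

theorem rootVal_add (r : ℕ) (s t : F) : rootVal C φ r (s + t) = rootVal C φ r s * rootVal C φ r t := by
  unfold rootVal
  split
  · rw [← map_mul]; congr 1; exact Subtype.ext (C.xu_add r s t).symm
  · simp

theorem rootVal_zero (r : ℕ) : rootVal C φ r 0 = 1 := by
  have h := rootVal_add C φ r 0 0
  rwa [add_zero, left_eq_mul] at h

theorem rootVal_comm {a b : ℕ} (ha : D.IsPosRoot a) (hb : D.IsPosRoot b) (hne : b ≠ a) (t v : F) :
    ((D.commTerms a b).map fun c => rootVal C φ c.1 ((c.2.1 : F) * (-t) ^ c.2.2.1 * v ^ c.2.2.2)).prod = 1 := by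
  have hneg : b ≠ D.neg a := fun e => C.not_pos_and_neg hb (e ▸ C.negRoot_neg ha)
  have key : ∀ L : List (ℕ × ℤ × ℕ × ℕ), (∀ c ∈ L, D.IsPosRoot c.1) →
      ∃ g : ↥(D.posUnipotent F),
        (g : GL D.Idx F) = C.wu (L.map fun c => (c.1, (c.2.1 : F) * (-t) ^ c.2.2.1 * v ^ c.2.2.2)) ∧
        φ g = (L.map fun c => rootVal C φ c.1 ((c.2.1 : F) * (-t) ^ c.2.2.1 * v ^ c.2.2.2)).prod := by
    intro L hL
    induction L with
    | nil => exact ⟨1, by simp [Cert.wu], map_one φ⟩
    | cons c L ih =>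
      obtain ⟨g, hg, hg'⟩ := ih fun c hc => hL c (List.mem_cons_of_mem _ hc)
      have hc := hL c List.mem_cons_self
      refine ⟨⟨_, C.xu_mem_pos hc ((c.2.1 : F) * (-t) ^ c.2.2.1 * v ^ c.2.2.2)⟩ * g, ?_, ?_⟩
      · rw [Subgroup.coe_mul, hg, List.map_cons, C.wu_cons]
      · rw [map_mul, hg', List.map_cons, List.prod_cons, rootVal, dif_pos hc]
  obtain ⟨g, hg, hg'⟩ := key _ (C.commTerms_pos ha hb)
  rw [← hg']
  let xa : ↥(D.posUnipotent F) := ⟨C.xu a t, C.xu_mem_pos ha t⟩
  let xb : ↥(D.posUnipotent F) := ⟨C.xu b v, C.xu_mem_pos hb v⟩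
  have e : xb * xa = xa * xb * g := by
    apply Subtype.ext
    rw [Subgroup.coe_mul, Subgroup.coe_mul, Subgroup.coe_mul, hg]
    exact C.xu_comm ha.1 hb.1 hne hneg t v
  have := congrArg φ e
  rw [map_mul, map_mul, map_mul, mul_comm (φ xb) (φ xa)] at this
  exact mul_eq_left.mp this.symm

theorem rootVal_solo {r : ℕ} (h : Solo D r) (t : F) : rootVal C φ r t = 1 := by
  obtain ⟨j, hj, b, -, hb, hne, c, hc, he⟩ := h
  have h1 := rootVal_comm C φ (C.pos_simple hj) hb hne (-1) ((c : F) * t)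
  rw [he] at h1
  have hcc : (c : F) * c = 1 := by
    rcases List.mem_pair.mp hc with rfl | rfl <;> simp
  simpa [← mul_assoc, hcc] using h1

/-- Exponents `1, 2, 3` separate. -/
theorem separate {ψ₁ ψ₂ ψ₃ : F → A}
    (h₂ : ∀ x y, ψ₂ (x + y) = ψ₂ x * ψ₂ y) (h₃ : ∀ x y, ψ₃ (x + y) = ψ₃ x * ψ₃ y)
    (h : ∀ t v : F, ψ₁ (t * v) * ψ₂ (t ^ 2 * v) * ψ₃ (t ^ 3 * v) = 1)
    {s : F} (hs0 : s ≠ 0) (hs1 : s ≠ 1)
    (hs' : (∀ x, ψ₃ x = 1) ∨ ∃ s' : F, s' ≠ 0 ∧ s' ≠ 1 ∧ s' ≠ s) :
    (∀ x, ψ₁ x = 1) ∧ (∀ x, ψ₂ x = 1) ∧ ∀ x, ψ₃ x = 1 := by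
  have hsub : ∀ (ψ : F → A), (∀ x y, ψ (x + y) = ψ x * ψ y) → ∀ x y, ψ (x - y) = ψ x / ψ y := by
    intro ψ hψ x y
    rw [eq_div_iff_mul_eq', ← hψ, sub_add_cancel]
  have key : ∀ t : F, t ≠ 0 → t ≠ 1 → ∀ y, ψ₂ y * ψ₃ ((t + 1) * y) = 1 := by
    intro t ht0 ht1 y
    have hne : t - 1 ≠ 0 := sub_ne_zero.mpr ht1
    set x := y / (t - 1) with hx
    have a := h t (x / t)
    have b := h 1 x
    rw [mul_div_cancel₀ x ht0] at a
    simp only [one_pow, one_mul] at b
    have e2 : t ^ 2 * (x / t) - x = y := by rw [hx]; field_simp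
    have e3 : t ^ 3 * (x / t) - x = (t + 1) * y := by rw [hx]; field_simp; ring
    rw [← e3, ← e2, hsub _ h₂, hsub _ h₃]
    rw [mul_assoc] at a b
    rw [div_mul_div_comm, div_eq_one]
    exact mul_left_cancel (a.trans b.symm)
  have z₃ : ∀ x, ψ₃ x = 1 := by
    rcases hs' with h' | ⟨s', hs'0, hs'1, hne⟩
    · exact h'
    intro x
    have a := key s hs0 hs1 (x / (s' - s))
    have b := key s' hs'0 hs'1 (x / (s' - s))
    have e : (s' + 1) * (x / (s' - s)) - (s + 1) * (x / (s' - s)) = x := by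
      have : s' - s ≠ 0 := sub_ne_zero.mpr hne
      field_simp
      ring
    rw [← e, hsub _ h₃, div_eq_one]
    exact mul_left_cancel (b.trans a.symm)
  have z₂ : ∀ x, ψ₂ x = 1 := fun x => by simpa [z₃] using key s hs0 hs1 x
  exact ⟨fun x => by simpa [z₂, z₃] using h 1 x, z₂, z₃⟩

theorem rootVal_nonsimple (hG : GenCert D) {s : F} (hs0 : s ≠ 0) (hs1 : s ≠ 1)
    (hbig : (∃ s' : F, s' ≠ 0 ∧ s' ≠ 1 ∧ s' ≠ s) ∨ ∀ r < D.nroots, D.IsPosRoot r →
      (∃ i < D.rank, r = D.simple i) ∨ Solo D r)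
    {r : ℕ} (hr : D.IsPosRoot r) (hns : ∀ i < D.rank, r ≠ D.simple i) (t : F) : rootVal C φ r t = 1 := by
  rcases hG r hr.1 hr with ⟨i, hi, e⟩ | h | ⟨a, -, b, -, ha, hb, hne, hmem, hsep, hnd⟩
  · exact absurd e (hns i hi)
  · exact rootVal_solo C φ h t
  by_cases hsolo : Solo D r
  · exact rootVal_solo C φ hsolo t
  obtain ⟨c₀, hc₀, rfl⟩ := List.mem_map.mp hmem
  set T := (D.commTerms a b).filter fun c => !decide (Solo D c.1) with hT
  let ψ : ℕ → F → A := fun k x =>
    ((T.filter fun c => c.2.2.1 == k).map fun c => rootVal C φ c.1 ((c.2.1 : F) * x)).prod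
  have hψ : ∀ k x y, ψ k (x + y) = ψ k x * ψ k y := by
    intro k x y
    simp only [ψ, ← List.prod_map_mul]
    congr 1
    exact List.map_congr_left fun c _ => by rw [mul_add, rootVal_add]
  have hTmem : ∀ c ∈ T, c ∈ D.commTerms a b ∧ ¬ Solo D c.1 := by
    intro c hc
    simpa [hT] using hc
  have hrel : ∀ t v : F, ψ 1 (t * v) * ψ 2 (t ^ 2 * v) * ψ 3 (t ^ 3 * v) = 1 := by
    intro t v
    have hall := rootVal_comm C φ ha hb hne (-t) v
    have hsplit : ((D.commTerms a b).map fun c =>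
        rootVal C φ c.1 ((c.2.1 : F) * (- -t) ^ c.2.2.1 * v ^ c.2.2.2)).prod =
        (T.map fun c => rootVal C φ c.1 ((c.2.1 : F) * (t ^ c.2.2.1 * v))).prod := by
      have : ∀ L : List (ℕ × ℤ × ℕ × ℕ), (∀ c ∈ L, c ∈ D.commTerms a b) →
          (L.map fun c => rootVal C φ c.1 ((c.2.1 : F) * (- -t) ^ c.2.2.1 * v ^ c.2.2.2)).prod =
          ((L.filter fun c => !decide (Solo D c.1)).map fun c =>
            rootVal C φ c.1 ((c.2.1 : F) * (t ^ c.2.2.1 * v))).prod := by
        intro L hL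
        induction L with
        | nil => rfl
        | cons c L ih =>
          rw [List.map_cons, List.prod_cons, ih fun c hc => hL c (List.mem_cons_of_mem _ hc)]
          by_cases hs : Solo D c.1
          · rw [rootVal_solo C φ hs, one_mul, List.filter_cons_of_neg (by simpa using hs)]
          · rw [List.filter_cons_of_pos (by simpa using hs), List.map_cons, List.prod_cons]
            obtain ⟨-, hj, -⟩ := (hsep c (hL c List.mem_cons_self)).resolve_left hs
            simp only [_root_.neg_neg, hj, pow_one, mul_assoc]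
      exact this _ fun c hc => hc
    rw [hsplit] at hall
    rw [← hall]
    have : ∀ L : List (ℕ × ℤ × ℕ × ℕ), (∀ c ∈ L, c.2.2.1 ∈ ([1, 2, 3] : List ℕ)) →
        ((L.filter fun c => c.2.2.1 == 1).map fun c => rootVal C φ c.1 ((c.2.1 : F) * (t * v))).prod *
        ((L.filter fun c => c.2.2.1 == 2).map fun c => rootVal C φ c.1 ((c.2.1 : F) * (t ^ 2 * v))).prod *
        ((L.filter fun c => c.2.2.1 == 3).map fun c => rootVal C φ c.1 ((c.2.1 : F) * (t ^ 3 * v))).prod =
        (L.map fun c => rootVal C φ c.1 ((c.2.1 : F) * (t ^ c.2.2.1 * v))).prod := by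
      intro L hL
      induction L with
      | nil => simp
      | cons c L ih =>
        rw [List.map_cons, List.prod_cons, ← ih fun c hc => hL c (List.mem_cons_of_mem _ hc)]
        have hc := hL c List.mem_cons_self
        simp only [List.mem_cons, List.not_mem_nil, or_false] at hc
        have assoc : ∀ a b c d : A, (a * b) * c * d = a * (b * c * d) ∧ b * (a * c) * d = a * (b * c * d) ∧
            b * c * (a * d) = a * (b * c * d) :=
          fun a b c d => ⟨by rw [mul_assoc, mul_assoc, mul_assoc], by rw [mul_left_comm b a c, mul_assoc], mul_left_comm _ _ _⟩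
        rcases hc with e | e | e <;> simp only [e, pow_one, List.filter_cons, beq_self_eq_true, Nat.reduceBEq,
          Bool.false_eq_true, if_true, if_false, List.map_cons, List.prod_cons]
        · exact (assoc _ _ _ _).1
        · exact (assoc _ _ _ _).2.1
        · exact (assoc _ _ _ _).2.2
    exact this T fun c hc => (((hsep c (hTmem c hc).1).resolve_left (hTmem c hc).2).2.2)
  have hs' : (∀ x, ψ 3 x = 1) ∨ ∃ s' : F, s' ≠ 0 ∧ s' ≠ 1 ∧ s' ≠ s := by
    rcases hbig with h | h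
    · exact Or.inr h
    · rcases h _ hr.1 hr with ⟨i, hi, e⟩ | h
      · exact absurd e (hns i hi)
      · exact absurd h hsolo
  obtain ⟨z1, z2, z3⟩ := separate (hψ 2) (hψ 3) hrel hs0 hs1 hs'
  have hc₀T : c₀ ∈ T := by rw [hT]; exact List.mem_filter.mpr ⟨hc₀, by simpa using hsolo⟩
  obtain ⟨hpm, -, hk⟩ := (hsep c₀ hc₀).resolve_left hsolo
  have hcc : (c₀.2.1 : F) * c₀.2.1 = 1 := by
    rcases List.mem_pair.mp hpm with e | e <;> simp [e]
  have hval : ψ c₀.2.2.1 ((c₀.2.1 : F) * t) = rootVal C φ c₀.1 t := by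
    have : (T.filter fun c => c.2.2.1 == c₀.2.2.1) = [c₀] := by
      have hT' : T.Nodup := List.Nodup.of_map _ hnd
      apply List.perm_singleton.mp
      refine (List.perm_ext_iff_of_nodup (hT'.filter _) (List.nodup_singleton _)).mpr fun c => ?_
      simp only [List.mem_filter, beq_iff_eq, List.mem_singleton]
      exact ⟨fun h => List.inj_on_of_nodup_map hnd h.1 hc₀T h.2, fun h => by subst h; exact ⟨hc₀T, rfl⟩⟩
    simp [ψ, this, ← mul_assoc, hcc]
  rw [← hval]
  simp only [List.mem_cons, List.not_mem_nil, or_false] at hk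
  rcases hk with e | e | e <;> rw [e]
  exacts [z1 _, z2 _, z3 _]

end Kill

end Cfsg.Agent.KnownA.Lie
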