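import Cfsg.Agent.KnownA.Lie.Generation

/-! Certificates for the generation of `U` by fundamental root groups. -/

set_option autoImplicit false

namespace Cfsg.Agent.KnownA.Lie

open Cfsg.Lie

theorem genCert_G2 : GenCert chevG2 := by decide +kernel
theorem genCert_B2 : GenCert chevB2 := by decide +kernel
theorem genCert_D4 : GenCert chevD4 := by decide +kernel
theorem genCert_F4 : GenCert chevF4 := by decide +kernel
theorem genCert_E6 : GenCert chevE6 := by decide +kernel
theorem genCert_E7 : GenCert chevE7 := by decide +kernel
theorem genCert_E8 : GenCert chevE8 := by decide +kernel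

theorem genCert_of_mem {D : ChevalleyDatum}
    (hD : D ∈ [chevG2, chevB2, chevD4, chevF4, chevE6, chevE7, chevE8]) : GenCert D := by
  simp only [List.mem_cons, List.not_mem_nil, or_false] at hD
  rcases hD with rfl | rfl | rfl | rfl | rfl | rfl | rfl
  exacts [genCert_G2, genCert_B2, genCert_D4, genCert_F4, genCert_E6, genCert_E7, genCert_E8]

theorem solo_of_E {D : ChevalleyDatum} (hD : D ∈ [chevE6, chevE7, chevE8]) :
    ∀ r < D.nroots, D.IsPosRoot r → (∃ i < D.rank, r = D.simple i) ∨ Solo D r := by
  simp only [List.mem_cons, List.not_mem_nil, or_false] at hD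
  rcases hD with rfl | rfl | rfl <;> decide +kernel

end Cfsg.Agent.KnownA.Lie
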