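import Cfsg.Agent.KnownA.Lie.Generation
import Cfsg.Agent.Chev.Orders
import Cfsg.Agent.Chev.TwistData
import Mathlib.GroupTheory.Commutator.Basic

/-! Weakly closed subgroups of `U` are unipotent radicals. -/

set_option autoImplicit false

universe u

namespace Cfsg.Agent.KnownA.Lie

open Cfsg.Lie Cfsg.Agent.Chev
open scoped Matrix MatrixGroups

variable {D : ChevalleyDatum} {F : Type u} [Field F] (C : Cert.{u} D)

/-- A torus element fixing the `i`-th fundamental character and moving the `j`-th, with exponent in `ds`. -/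
def SepPair (D : ChevalleyDatum) (ds : List ℤ) (k l i j : ℕ) : Prop :=
  ∃ m ∈ ([-2, -1, 0, 1, 2] : List ℤ), ∃ n ∈ ([-2, -1, 0, 1, 2] : List ℤ),
    m * D.cartan k (D.simple i) + n * D.cartan l (D.simple i) = 0 ∧
      m * D.cartan k (D.simple j) + n * D.cartan l (D.simple j) ∈ ds

instance (D : ChevalleyDatum) (ds : List ℤ) (k l i j : ℕ) : Decidable (SepPair D ds k l i j) := by
  unfold SepPair; infer_instance

/-- The fundamental characters are separated by torus elements with exponents in `ds`. -/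
def TorusSep (D : ChevalleyDatum) (ds : List ℤ) : Prop :=
  ∀ i < D.rank, ∀ j < D.rank, i ≠ j →
    ∃ k < D.rank, ∃ l < D.rank, SepPair D ds k l i j ∨ SepPair D ds k l j i

instance (D : ChevalleyDatum) (ds : List ℤ) : Decidable (TorusSep D ds) := by unfold TorusSep; infer_instance

/-- A proper subgroup of a nilpotent finite group stays proper modulo the commutator subgroup. -/
theorem eq_top_of_sup_commutator {G : Type u} [Group G] [Finite G] [Group.IsNilpotent G] {K : Subgroup G}
    (h : K ⊔ commutator G = ⊤) : K = ⊤ := by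
  by_contra hK
  obtain ⟨M, hM, hle⟩ := (IsCoatomic.eq_top_or_exists_le_coatom K).resolve_left hK
  have hN : M.Normal := Subgroup.NormalizerCondition.normal_of_coatom M Group.normalizerCondition_of_isNilpotent hM
  obtain ⟨g, -, hg⟩ := SetLike.exists_of_lt (lt_top_iff_ne_top.2 hM.1)
  have htop : M ⊔ Subgroup.zpowers g = ⊤ :=
    hM.2 _ (left_lt_sup.2 fun hle' => hg (hle' (Subgroup.mem_zpowers g)))
  have hc := hN.commutator_le_of_self_sup_commutative_eq_top htop inferInstance
  exact hM.1 (top_le_iff.mp (h ▸ sup_le hle hc))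

include C

theorem mem_span_of_conj [Fintype F] {L : List ℕ} (hL : ∀ i ∈ L, i < D.rank) {g : GL D.Idx F}
    (hg : g ∈ D.posUnipotent F) (hg' : C.nWordElt F L * g * (C.nWordElt F L)⁻¹ ∈ D.posUnipotent F) :
    g ∈ spanGroup D F (fun r => D.IsPosRoot r ∧ D.IsPosRoot (act D L r)) := by
  classical
  set n := C.nWordElt F L
  set P : ℕ → Prop := fun r => D.IsPosRoot r ∧ D.IsPosRoot (act D L r)
  set Q : ℕ → Prop := fun r => D.IsPosRoot r ∧ D.IsNegRoot (act D L r)
  have hcomb : ∀ r s, D.IsPosRoot r → D.IsPosRoot s → ∀ c ∈ D.commTerms r s, ∀ k < D.rank,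
      C.coef (act D L c.1) k = (c.2.2.1 : ℤ) * C.coef (act D L r) k + (c.2.2.2 : ℤ) * C.coef (act D L s) k := by
    intro r s hr hs c hc k hk
    obtain ⟨-, -, h3⟩ := C.commTerms_coef hr.1 hs.1 c hc
    rw [C.act_coef hL (C.commTerms_pos hr hs c hc).1 k hk, C.act_coef hL hr.1 k hk, C.act_coef hL hs.1 k hk,
      Finset.mul_sum, Finset.mul_sum, ← Finset.sum_add_distrib]
    exact Finset.sum_congr rfl fun j hj => by rw [h3 j (Finset.mem_range.mp hj)]; ring
  have hP : ClosedSet D P := ⟨fun r h => h.1, fun r s hr hs c hc =>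
    ⟨C.commTerms_pos hr.1 hs.1 c hc, (C.pos_iff _ (C.act_lt hL (C.commTerms_pos hr.1 hs.1 c hc).1)).mpr
      fun k hk => by
        rw [hcomb r s hr.1 hs.1 c hc k hk]
        exact add_nonneg (mul_nonneg (Int.natCast_nonneg _) ((C.pos_iff _ hr.2.1).mp hr.2 k hk))
          (mul_nonneg (Int.natCast_nonneg _) ((C.pos_iff _ hs.2.1).mp hs.2 k hk))⟩⟩
  have hQ : ClosedSet D Q := ⟨fun r h => h.1, fun r s hr hs c hc =>
    ⟨C.commTerms_pos hr.1 hs.1 c hc, (C.negRoot_iff _ (C.act_lt hL (C.commTerms_pos hr.1 hs.1 c hc).1)).mpr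
      fun k hk => by
        rw [hcomb r s hr.1 hs.1 c hc k hk]
        exact add_nonpos
          (mul_nonpos_of_nonneg_of_nonpos (Int.natCast_nonneg _) ((C.negRoot_iff _ hr.2.1).mp hr.2 k hk))
          (mul_nonpos_of_nonneg_of_nonpos (Int.natCast_nonneg _) ((C.negRoot_iff _ hs.2.1).mp hs.2 k hk))⟩⟩
  have hconj : ∀ {R : ℕ → Prop} {K : Subgroup (GL D.Idx F)},
      (∀ r, R r → r < D.nroots ∧ ∀ t : F, C.xu (act D L r) t ∈ K) →
      ∀ x ∈ spanGroup D F R, n * x * n⁻¹ ∈ K := by
    intro R K hR x hx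
    have : spanGroup D F R ≤ K.comap (MulAut.conj n).toMonoidHom := C.span_le fun r hr t => by
      obtain ⟨c, -, e⟩ := C.nWordElt_conj_xu (F := F) hL (hR r hr).1
      rw [Subgroup.mem_comap]
      show n * C.xu r t * n⁻¹ ∈ K
      rw [e]
      exact (hR r hr).2 _
    exact this hx
  have hPU : spanGroup D F P ≤ D.posUnipotent F := by rw [← Cert.span_pos]; exact C.span_mono fun r hr => hr.1
  have hQU : spanGroup D F Q ≤ D.posUnipotent F := by rw [← Cert.span_pos]; exact C.span_mono fun r hr => hr.1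
  have hnP : ∀ x ∈ spanGroup D F P, n * x * n⁻¹ ∈ D.posUnipotent F :=
    hconj fun r hr => ⟨hr.1.1, C.xu_mem_pos hr.2⟩
  have hnQ : ∀ x ∈ spanGroup D F Q, n * x * n⁻¹ ∈ D.negUnipotent F :=
    hconj fun r hr => ⟨hr.1.1, C.xu_mem_neg hr.2⟩
  have hbot : ∀ x, x ∈ spanGroup D F Q → n * x * n⁻¹ ∈ D.posUnipotent F → x = 1 := by
    intro x hx hx'
    have : n * x * n⁻¹ ∈ (⊥ : Subgroup (GL D.Idx F)) := by
      rw [← C.borel_inf_neg]; exact Subgroup.mem_inf.mpr ⟨C.pos_le_borel hx', hnQ x hx⟩
    exact conj_eq_one_iff.mp (Subgroup.mem_bot.mp this)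
  let f : ↥(spanGroup D F P) × ↥(spanGroup D F Q) → ↥(D.posUnipotent F) :=
    fun p => ⟨p.1 * p.2, mul_mem (hPU p.1.2) (hQU p.2.2)⟩
  have hinj : Function.Injective f := by
    rintro ⟨a, b⟩ ⟨a', b'⟩ e
    have e' : (a : GL D.Idx F) * b = a' * b' := congrArg Subtype.val e
    have h1 : (b' : GL D.Idx F) * (b : GL D.Idx F)⁻¹ = (a' : GL D.Idx F)⁻¹ * a := by
      rw [eq_inv_mul_iff_mul_eq, ← mul_assoc, ← e', mul_inv_cancel_right]
    have h2 : (b' : GL D.Idx F) * (b : GL D.Idx F)⁻¹ = 1 :=
      hbot _ (mul_mem b'.2 (inv_mem b.2)) (by rw [h1]; exact hnP _ (mul_mem (inv_mem a'.2) a.2))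
    have hb : b = b' := Subtype.ext (mul_inv_eq_one.mp h2).symm
    subst hb
    exact Prod.ext (Subtype.ext (mul_right_cancel e')) rfl
  have hcard : Nat.card (↥(spanGroup D F P) × ↥(spanGroup D F Q)) = Nat.card ↥(D.posUnipotent F) := by
    rw [Nat.card_prod, ← Cert.span_pos, C.natCard_span hP, C.natCard_span hQ, C.natCard_span C.closedSet_pos,
      ← pow_add, ← Finset.card_union_of_disjoint]
    · congr 2
      ext r
      simp only [Finset.mem_union, Finset.mem_filter, Finset.mem_univ, true_and, P, Q]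
      refine ⟨fun h => h.elim And.left And.left, fun h => ?_⟩
      rcases C.posRoot_or_negRoot (C.act_lt hL r.isLt) with hp | hn
      · exact Or.inl ⟨h, hp⟩
      · exact Or.inr ⟨h, hn⟩
    · rw [Finset.disjoint_left]
      intro r h1 h2
      exact C.not_pos_and_neg (Finset.mem_filter.mp h1).2.2 (Finset.mem_filter.mp h2).2.2
  obtain ⟨⟨a, b⟩, hab⟩ := ((Nat.bijective_iff_injective_and_card f).mpr ⟨hinj, hcard⟩).2 ⟨g, hg⟩
  have hab' : (a : GL D.Idx F) * b = g := congrArg Subtype.val hab
  have hb : (b : GL D.Idx F) = 1 := hbot _ b.2 (by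
    have : n * (b : GL D.Idx F) * n⁻¹ = (n * a * n⁻¹)⁻¹ * (n * g * n⁻¹) := by rw [← hab']; group
    rw [this]
    exact mul_mem (inv_mem (hnP _ a.2)) hg')
  rw [← hab', hb, mul_one]
  exact a.2

theorem exists_word_negative {J : Set ℕ} {r : ℕ} (hr : D.IsPosRoot r) (hJ : D.InRootSub J r) :
    ∃ L : List ℕ, (∀ i ∈ L, i < D.rank ∧ i ∈ J) ∧ D.IsNegRoot (act D L r) := by
  suffices key : ∀ (k : ℕ) r, D.IsPosRoot r → (C.ht r).toNat ≤ k → D.InRootSub J r →
      ∃ L : List ℕ, (∀ i ∈ L, i < D.rank ∧ i ∈ J) ∧ D.IsNegRoot (act D L r) from key _ r hr le_rfl hJ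
  clear hr hJ r
  intro k
  induction k with
  | zero => intro r hr hk; have := C.ht_pos hr; omega
  | succ k ih =>
    intro r hr hk hJ
    obtain ⟨i, hi, hc, hne⟩ := C.exists_descend_supp hr
    have hiJ : i ∈ J := by
      by_contra h
      exact hne ((C.inRootSub_iff.mp hJ).2 i hi h)
    by_cases hp : r = D.simple i
    · refine ⟨[i], by simp [hi, hiJ], ?_⟩
      subst hp
      show D.IsNegRoot (D.reflectRoot i (D.simple i))
      rw [C.refl_simple hi]
      exact C.negRoot_neg (C.pos_simple hi)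
    · have hr' := C.pos_refl hi hr hp
      have := C.ht_refl hi hr.1
      have := C.ht_pos hr'
      obtain ⟨L, hL, hn⟩ := ih _ hr' (by omega) ((C.inRootSub_refl hi hiJ hr.1).mpr hJ)
      refine ⟨L ++ [i], ?_, ?_⟩
      · intro j hj
        rcases List.mem_append.mp hj with h | h
        · exact hL j h
        · rw [List.mem_singleton.mp h]; exact ⟨hi, hiJ⟩
      · rwa [act_append, act_cons, act_nil]

theorem weaklyClosed_radical [Fintype F] {ds : List ℤ} (hsep : TorusSep D ds)
    (hds : ∀ d ∈ ds, ∃ c : F, c ≠ 0 ∧ c ^ d ≠ 1)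
    (hgen : ∀ {A : Type u} [CommGroup A] (φ : ↥(D.posUnipotent F) →* A) {r : ℕ}, D.IsPosRoot r →
      (∀ i < D.rank, r ≠ D.simple i) → ∀ t, rootVal C φ r t = 1)
    {X : Subgroup (GL D.Idx F)} (hXU : X ≤ D.posUnipotent F)
    (hwc : ∀ g ∈ D.group F, X.map (MulAut.conj g).toMonoidHom ≤ D.posUnipotent F →
      X.map (MulAut.conj g).toMonoidHom = X) :
    ∃ J : Set ℕ, (∀ j ∈ J, j < D.rank) ∧ X = D.unipotentRadical F J := by
  classical
  set U := D.posUnipotent F with hUdef
  have hnorm : ∀ g ∈ D.group F, (∀ x ∈ X, g * x * g⁻¹ ∈ U) →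
      g ∈ Subgroup.normalizer (X : Set (GL D.Idx F)) := by
    intro g hg h
    have e := hwc g hg (by rintro _ ⟨x, hx, rfl⟩; exact h x hx)
    rw [Subgroup.mem_normalizer_iff]
    intro x
    constructor
    · intro hx; rw [← e]; exact ⟨x, hx, rfl⟩
    · intro hx
      rw [← e] at hx
      obtain ⟨y, hy, hy'⟩ := hx
      have e' : y = x := (MulAut.conj g).injective (by simpa using hy')
      rwa [← e']
  have hB : D.borelSubgroup F ≤ Subgroup.normalizer (X : Set (GL D.Idx F)) := by
    intro b hb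
    refine hnorm b (C.borel_le_group hb) fun x hx => ?_
    have hbU : b ∈ Subgroup.normalizer (U : Set (GL D.Idx F)) :=
      (sup_le Subgroup.le_normalizer C.posUnipotent_normalised : D.borelSubgroup F ≤ _) hb
    exact (Subgroup.mem_normalizer_iff.mp hbU x).mp (hXU hx)
  set J : Set ℕ := {i | i < D.rank ∧ X ≤ spanGroup D F (posExcept D i)} with hJ
  have hnJ : ∀ i ∈ J, C.nu (D.simple i) (1 : F) ∈ Subgroup.normalizer (X : Set (GL D.Idx F)) := by
    intro i hi
    refine hnorm _ (C.nu_mem_group _ _) fun x hx => ?_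
    have h := (Subgroup.mem_normalizer_iff.mp (C.nu_normalises_except (F := F) hi.1) x).mp (hi.2 hx)
    exact (C.span_mono (Q := D.IsPosRoot) fun r hr => hr.1) h
  -- `X ≤ U_J`
  have hXR : X ≤ D.unipotentRadical F J := by
    intro x hx
    have hxU : x ∈ spanGroup D F D.IsPosRoot := hXU hx
    obtain ⟨t, -, rfl⟩ := C.exists_prodU C.closedSet_pos hxU
    rw [C.radical_eq]
    refine C.prodU_mem t fun r hr hne => ⟨hr, fun hrJ => hne ?_⟩
    obtain ⟨L, hL, hneg⟩ := exists_word_negative C hr hrJ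
    have hn : C.nWordElt F L ∈ Subgroup.normalizer (X : Set (GL D.Idx F)) := by
      refine Subgroup.list_prod_mem _ fun y hy => ?_
      obtain ⟨i, hi, rfl⟩ := List.mem_map.mp hy
      exact hnJ i (hL i hi).2
    have hmem := mem_span_of_conj C (fun i hi => (hL i hi).1) hxU
      (hXU ((Subgroup.mem_normalizer_iff.mp hn _).mp hx))
    have hcl : ClosedSet D D.IsPosRoot := C.closedSet_pos
    obtain ⟨t', ht', e⟩ := C.exists_prodU (P := fun r => D.IsPosRoot r ∧ D.IsPosRoot (act D L r))
      ⟨fun r h => h.1, fun a b ha hb c hc => ⟨C.commTerms_pos ha.1 hb.1 c hc,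
        (C.pos_iff _ (C.act_lt (fun i hi => (hL i hi).1) (C.commTerms_pos ha.1 hb.1 c hc).1)).mpr fun k hk => by
          have hL' : ∀ i ∈ L, i < D.rank := fun i hi => (hL i hi).1
          obtain ⟨-, -, h3⟩ := C.commTerms_coef ha.1.1 hb.1.1 c hc
          rw [C.act_coef hL' (C.commTerms_pos ha.1 hb.1 c hc).1 k hk,
            Finset.sum_congr rfl fun j hj => by
              rw [h3 j (Finset.mem_range.mp hj), add_mul, mul_assoc, mul_assoc],
            Finset.sum_add_distrib, ← Finset.mul_sum, ← Finset.mul_sum, ← C.act_coef hL' ha.1.1 k hk,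
            ← C.act_coef hL' hb.1.1 k hk]
          exact add_nonneg (mul_nonneg (Int.natCast_nonneg _) ((C.pos_iff _ ha.2.1).mp ha.2 k hk))
            (mul_nonneg (Int.natCast_nonneg _) ((C.pos_iff _ hb.2.1).mp hb.2 k hk))⟩⟩ hmem
    rw [C.prodU_inj e r hr]
    by_contra hne'
    exact C.not_pos_and_neg (ht' r hne').2 hneg
  -- the fundamental components
  set PJ : ℕ → Prop := fun r => D.IsPosRoot r ∧ D.InRootSub J r
  set K : Subgroup ↥U := X.subgroupOf U ⊔ (spanGroup D F PJ).subgroupOf U with hK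
  set φ : ↥U →* Abelianization ↥U := Abelianization.of
  set W : Subgroup (Abelianization ↥U) := K.map φ with hW
  let Φ : (ℕ → F) → Abelianization ↥U := fun w => ∏ i ∈ Finset.range D.rank, rootVal C φ (D.simple i) (w i)
  have hsimp : ∀ {i j}, i < D.rank → j < D.rank → D.simple i = D.simple j → i = j :=
    fun hi hj e => TwistOK.simple_inj hi hj C e
  have hprodU : ∀ t : ℕ → F, ∀ h : C.prodU t ∈ U, φ ⟨C.prodU t, h⟩ = Φ fun i => t (D.simple i) := by
    intro t h
    have key : ∀ L : List ℕ, (∀ r ∈ L, D.IsPosRoot r) → ∀ h : C.wu (L.map fun r => (r, t r)) ∈ U,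
        φ ⟨_, h⟩ = (L.map fun r => rootVal C φ r (t r)).prod := by
      intro L hL
      induction L with
      | nil => intro h; exact map_one φ
      | cons a L ih =>
        intro h
        have ha := hL a List.mem_cons_self
        have hL' : C.wu (L.map fun r => (r, t r)) ∈ U := by
          refine (C.span_mono (Q := D.IsPosRoot) fun r hr => hr) (C.wu_mem_span _ fun p hp => ?_)
          obtain ⟨r, hr, rfl⟩ := List.mem_map.mp hp
          exact hL r (List.mem_cons_of_mem _ hr)
        have e : (⟨C.wu ((a :: L).map fun r => (r, t r)), h⟩ : ↥U) =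
            ⟨C.xu a (t a), C.xu_mem_pos ha _⟩ * ⟨_, hL'⟩ := Subtype.ext (by
              show C.wu ((a :: L).map fun r => (r, t r)) = C.xu a (t a) * C.wu (L.map fun r => (r, t r))
              rw [List.map_cons, C.wu_cons])
        rw [e, map_mul, ih (fun r hr => hL r (List.mem_cons_of_mem _ hr)) hL', List.map_cons, List.prod_cons,
          rootVal, dif_pos ha]
    rw [show φ ⟨C.prodU t, h⟩ = _ from key _ (fun r hr => Cert.mem_posRoots.mp hr) h,
      ← List.prod_toFinset _ Cert.nodup_posRoots]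
    show _ = ∏ i ∈ Finset.range D.rank, rootVal C φ (D.simple i) (t (D.simple i))
    rw [← Finset.prod_image (f := fun r => rootVal C φ r (t r)) (g := D.simple)
      fun i hi j hj e => hsimp (Finset.mem_range.mp hi) (Finset.mem_range.mp hj) e]
    refine (Finset.prod_subset ?_ ?_).symm
    · intro r hr
      obtain ⟨i, hi, rfl⟩ := Finset.mem_image.mp hr
      exact List.mem_toFinset.mpr (Cert.mem_posRoots.mpr (C.pos_simple (Finset.mem_range.mp hi)))
    · intro r hr hr'
      exact hgen φ (Cert.mem_posRoots.mp (List.mem_toFinset.mp hr))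
        (fun i hi e => hr' (Finset.mem_image.mpr ⟨i, Finset.mem_range.mpr hi, e.symm⟩)) _
  -- scaling by the torus
  have hscale : ∀ w : ℕ → F, Φ w ∈ W → ∀ k < D.rank, ∀ c : F, c ≠ 0 →
      Φ (fun i => c ^ D.cartan k (D.simple i) * w i) ∈ W := by
    intro w hw k hk c hc
    set h := C.hu (D.simple k) c
    have hh : h ∈ D.diagonalSubgroup F := C.hu_simple_mem_diagonal (C.simple_lt k hk) hc
    have hKn : ∀ g ∈ X ⊔ spanGroup D F PJ, h * g * h⁻¹ ∈ X ⊔ spanGroup D F PJ := by
      intro g hg
      have h1 : X ⊔ spanGroup D F PJ ≤ (X ⊔ spanGroup D F PJ).comap (MulAut.conj h).toMonoidHom := by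
        refine sup_le ?_ ?_
        · intro y hy
          exact Subgroup.mem_sup_left ((Subgroup.mem_normalizer_iff.mp
            (hB (C.diagonal_le_borel hh)) y).mp hy)
        · intro y hy
          exact Subgroup.mem_sup_right ((Subgroup.mem_normalizer_iff.mp
            (C.diag_normalises PJ (fun r hr => hr.1.1) hh) y).mp hy)
      exact h1 hg
    have hKU : X ⊔ spanGroup D F PJ ≤ U := sup_le hXU (C.span_mono (Q := D.IsPosRoot) fun r hr => hr.1)
    have hKeq : K = (X ⊔ spanGroup D F PJ).subgroupOf U :=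
      (Subgroup.subgroupOf_sup hXU (C.span_mono (Q := D.IsPosRoot) fun r hr => hr.1)).symm
    have hUn : h ∈ Subgroup.normalizer (U : Set (GL D.Idx F)) := C.posUnipotent_normalised hh
    let σ : ↥U →* ↥U :=
      { toFun := fun g => ⟨h * g * h⁻¹, (Subgroup.mem_normalizer_iff.mp hUn _).mp g.2⟩
        map_one' := Subtype.ext (by simp)
        map_mul' := fun a b => Subtype.ext (by simp [mul_assoc]) }
    obtain ⟨g, hg, hgw⟩ := hw
    have hσ : φ (σ g) ∈ W := ⟨σ g, by
      rw [SetLike.mem_coe, hKeq, Subgroup.mem_subgroupOf] at hg ⊢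
      exact hKn _ hg, rfl⟩
    have hval : ∀ i < D.rank, ∀ y : F,
        (Abelianization.map σ) (rootVal C φ (D.simple i) y) =
          rootVal C φ (D.simple i) (c ^ D.cartan k (D.simple i) * y) := by
      intro i hi y
      have hp := C.pos_simple hi
      rw [rootVal, dif_pos hp, rootVal, dif_pos hp, Abelianization.map_of]
      congr 1
      apply Subtype.ext
      show h * C.xu (D.simple i) y * h⁻¹ = _
      rw [C.hu_conj_xu (C.simple_lt k hk) hp.1 hc, mul_inv_cancel_right, pairChar, C.pairInt_simple hk]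
    have e : (Abelianization.map σ) (Φ w) = Φ (fun i => c ^ D.cartan k (D.simple i) * w i) := by
      rw [map_prod]
      exact Finset.prod_congr rfl fun i hi => hval i (Finset.mem_range.mp hi) _
    rw [← e, ← hgw, Abelianization.map_of]
    exact hσ
  have hΦadd : ∀ v w : ℕ → F, Φ (v + w) = Φ v * Φ w := fun v w => by
    simp only [Φ, Pi.add_apply, rootVal_add, Finset.prod_mul_distrib]
  have hsingle : ∀ i < D.rank, ∀ w : ℕ → F, (∀ j < D.rank, j ≠ i → w j = 0) →
      Φ w = rootVal C φ (D.simple i) (w i) := by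
    intro i hi w hw
    refine Finset.prod_eq_single_of_mem i (Finset.mem_range.mpr hi) fun j hj hji => ?_
    rw [hw j (Finset.mem_range.mp hj) hji, rootVal_zero]
  -- each component set is a subspace
  have hideal : ∀ i < D.rank, ∀ y : F, rootVal C φ (D.simple i) y ∈ W → ∀ a : F,
      rootVal C φ (D.simple i) (a * y) ∈ W := by
    intro i hi y hy a
    have hsq : ∀ a : F, rootVal C φ (D.simple i) (a ^ 2 * y) ∈ W := by
      intro a
      by_cases ha : a = 0
      · simp [ha, rootVal_zero]
      have h0 : Φ (Pi.single i y) ∈ W := by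
        rw [hsingle i hi _ fun j _ hji => Pi.single_eq_of_ne hji _, Pi.single_eq_same]; exact hy
      have h1 := hscale _ h0 i hi a ha
      rw [hsingle i hi _ fun j _ hji => by rw [Pi.single_eq_of_ne hji _, mul_zero], Pi.single_eq_same,
        C.cartan_diag i hi, zpow_ofNat] at h1
      exact h1
    by_cases h2 : (2 : F) = 0
    · have : CharP F 2 := (CharTwo.of_one_ne_zero_of_two_eq_zero one_ne_zero h2)
      obtain ⟨b, hb⟩ := (FiniteField.isSquare_of_char_two (ringChar.eq F 2) a)
      rw [hb, ← pow_two]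
      exact hsq b
    · have e : a * y = ((a + 1) / 2) ^ 2 * y + -(((a - 1) / 2) ^ 2 * y) := by field_simp; ring
      have hn : ∀ x : F, rootVal C φ (D.simple i) (-x) = (rootVal C φ (D.simple i) x)⁻¹ := fun x =>
        eq_inv_of_mul_eq_one_left (by rw [← rootVal_add, neg_add_cancel, rootVal_zero])
      rw [e, rootVal_add, hn]
      exact mul_mem (hsq _) (inv_mem (hsq _))
  -- projections
  have hproj : ∀ (N : ℕ) (w : ℕ → F), ((Finset.range D.rank).filter fun i => w i ≠ 0).card ≤ N → Φ w ∈ W →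
      ∀ i < D.rank, rootVal C φ (D.simple i) (w i) ∈ W := by
    intro N
    induction N with
    | zero =>
      intro w hN _ i hi
      have : w i = 0 := by
        by_contra hne
        rw [Nat.le_zero, Finset.card_eq_zero] at hN
        exact Finset.notMem_empty i (hN ▸ Finset.mem_filter.mpr ⟨Finset.mem_range.mpr hi, hne⟩)
      rw [this, rootVal_zero]; exact one_mem W
    | succ N ih =>
      intro w hN hw i hi
      by_cases hwi : w i = 0
      · rw [hwi, rootVal_zero]; exact one_mem W
      by_cases hex : ∃ j < D.rank, j ≠ i ∧ w j ≠ 0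
      · obtain ⟨j, hj, hji, hwj⟩ := hex
        obtain ⟨k, hk, l, hl, hkl⟩ := hsep i hi j hj (Ne.symm hji)
        -- `a` is fixed, `b` is moved
        obtain ⟨a, ha, b, hb, hab, m, -, n, -, hd0, hd1⟩ : ∃ a < D.rank, ∃ b < D.rank,
            (a = i ∧ b = j ∨ a = j ∧ b = i) ∧ SepPair D ds k l a b := by
          rcases hkl with h | h
          · exact ⟨i, hi, j, hj, Or.inl ⟨rfl, rfl⟩, h⟩
          · exact ⟨j, hj, i, hi, Or.inr ⟨rfl, rfl⟩, h⟩
        obtain ⟨c, hc, hcd⟩ := hds _ hd1
        have hwa : w a ≠ 0 := by rcases hab with ⟨rfl, -⟩ | ⟨rfl, -⟩ <;> assumption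
        have hwb : w b ≠ 0 := by rcases hab with ⟨-, rfl⟩ | ⟨-, rfl⟩ <;> assumption
        let χ : ℕ → F := fun s => c ^ (m * D.cartan k (D.simple s) + n * D.cartan l (D.simple s))
        have h1 : Φ (fun s => χ s * w s) ∈ W := by
          have h := hscale _ (hscale w hw l hl (c ^ n) (zpow_ne_zero _ hc)) k hk (c ^ m) (zpow_ne_zero _ hc)
          refine (congrArg (· ∈ W) (congrArg Φ (funext fun s => ?_))).mp h
          simp only [χ]
          rw [zpow_add₀ hc, zpow_mul, zpow_mul, mul_assoc]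
        set w' : ℕ → F := fun s => χ s * w s - w s
        have hw' : Φ w' ∈ W := by
          have e : Φ w' * Φ w = Φ (fun s => χ s * w s) := by
            rw [← hΦadd]; congr 1; funext s; simp [w']
          rw [show Φ w' = Φ (fun s => χ s * w s) / Φ w from eq_div_iff_mul_eq'.mpr e]
          exact div_mem h1 hw
        have hsmall : ((Finset.range D.rank).filter fun s => w' s ≠ 0).card ≤ N := by
          refine Nat.le_of_lt_succ (lt_of_lt_of_le (Finset.card_lt_card ?_) hN)
          rw [Finset.ssubset_iff_of_subset]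
          · refine ⟨a, Finset.mem_filter.mpr ⟨Finset.mem_range.mpr ha, hwa⟩, fun h => (Finset.mem_filter.mp h).2 ?_⟩
            simp [w', χ, hd0]
          · intro s hs
            simp only [Finset.mem_filter] at hs ⊢
            exact ⟨hs.1, fun h0 => hs.2 (by simp [w', h0])⟩
        have hb1 : rootVal C φ (D.simple b) (w b) ∈ W := by
          have hne : χ b - 1 ≠ 0 := sub_ne_zero.mpr hcd
          have h := hideal b hb _ (ih w' hsmall hw' b hb) (χ b - 1)⁻¹
          rwa [show w' b = (χ b - 1) * w b by simp [w']; ring, inv_mul_cancel_left₀ hne] at h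
        set w'' : ℕ → F := fun s => if s = b then 0 else w s
        have hw'' : Φ w'' ∈ W := by
          have e : Φ w'' * rootVal C φ (D.simple b) (w b) = Φ w := by
            have : rootVal C φ (D.simple b) (w b) = Φ (Pi.single b (w b)) := by
              rw [hsingle b hb _ fun s _ hs => Pi.single_eq_of_ne hs _, Pi.single_eq_same]
            rw [this, ← hΦadd]; congr 1; funext s
            by_cases hs : s = b <;> simp [w'', hs]
          rw [show Φ w'' = Φ w / rootVal C φ (D.simple b) (w b) from eq_div_iff_mul_eq'.mpr e]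
          exact div_mem hw hb1
        by_cases hib : i = b
        · rwa [hib]
        have hsmall' : ((Finset.range D.rank).filter fun s => w'' s ≠ 0).card ≤ N := by
          refine Nat.le_of_lt_succ (lt_of_lt_of_le (Finset.card_lt_card ?_) hN)
          rw [Finset.ssubset_iff_of_subset]
          · exact ⟨b, Finset.mem_filter.mpr ⟨Finset.mem_range.mpr hb, hwb⟩,
              fun h => (Finset.mem_filter.mp h).2 (by simp [w''])⟩
          · intro s hs
            simp only [Finset.mem_filter] at hs ⊢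
            exact ⟨hs.1, fun h0 => hs.2 (by simp [w'', h0])⟩
        have h := ih w'' hsmall' hw'' i hi
        rwa [show w'' i = w i by simp [w'', hib]] at h
      · push Not at hex
        rwa [hsingle i hi w hex] at hw
  have hall : ∀ i < D.rank, ∀ y : F, rootVal C φ (D.simple i) y ∈ W := by
    intro i hi y
    by_cases hiJ : i ∈ J
    · rw [rootVal, dif_pos (C.pos_simple hi)]
      refine ⟨_, Subgroup.mem_sup_right ?_, rfl⟩
      exact Subgroup.mem_subgroupOf.mpr (C.xu_mem_span (P := PJ) ⟨C.pos_simple hi, C.inRootSub_simple hi hiJ⟩ y)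
    · have hnle : ¬ X ≤ spanGroup D F (posExcept D i) := fun h => hiJ ⟨hi, h⟩
      obtain ⟨x, hx, hx'⟩ := SetLike.not_le_iff_exists.mp hnle
      obtain ⟨t, -, rfl⟩ := C.exists_prodU C.closedSet_pos (hXU hx)
      have hne : t (D.simple i) ≠ 0 := by
        intro h0
        refine hx' (C.prodU_mem t fun r hr hne => ⟨hr, fun e => hne ?_⟩)
        rw [e, h0]
      have hmem : Φ (fun s => t (D.simple s)) ∈ W := by
        rw [← hprodU t (hXU hx)]
        exact ⟨_, Subgroup.mem_sup_left (Subgroup.mem_subgroupOf.mpr hx), rfl⟩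
      have h := hideal i hi _ (hproj _ _ le_rfl hmem i hi) (y / t (D.simple i))
      rwa [div_mul_cancel₀ y hne] at h
  have hWtop : W = ⊤ := by
    refine eq_top_iff.mpr fun a _ => ?_
    obtain ⟨⟨g, hg⟩, rfl⟩ := QuotientGroup.mk_surjective a
    obtain ⟨t, -, rfl⟩ := C.exists_prodU C.closedSet_pos (hg : g ∈ spanGroup D F D.IsPosRoot)
    show φ _ ∈ W
    rw [hprodU t hg]
    exact prod_mem fun i hi => hall i (Finset.mem_range.mp hi) _
  have hKtop : K = ⊤ := by
    have := C.isNilpotent_posUnipotent (F := F)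
    refine eq_top_of_sup_commutator (eq_top_iff.mpr fun g _ => ?_)
    obtain ⟨k, hk, hkg⟩ := (hWtop ▸ Subgroup.mem_top (φ g) : φ g ∈ W)
    have : k⁻¹ * g ∈ φ.ker := by rw [MonoidHom.mem_ker, map_mul, map_inv, hkg, inv_mul_cancel]
    rw [Abelianization.ker_of] at this
    rw [← mul_inv_cancel_left k g]
    exact mul_mem (Subgroup.mem_sup_left hk) (Subgroup.mem_sup_right this)
  refine ⟨J, fun j hj => hj.1, le_antisymm hXR fun g hg => ?_⟩
  have hgU : g ∈ U := by
    rw [C.radical_eq] at hg
    exact (C.span_mono (Q := D.IsPosRoot) fun r hr => hr.1) hg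
  have hgK : (⟨g, hgU⟩ : ↥U) ∈ K := hKtop ▸ Subgroup.mem_top _
  rw [hK, ← Subgroup.subgroupOf_sup hXU (C.span_mono (Q := D.IsPosRoot) fun r hr => hr.1),
    Subgroup.mem_subgroupOf] at hgK
  have hn : spanGroup D F PJ ≤ Subgroup.normalizer (X : Set (GL D.Idx F)) :=
    le_trans (C.span_mono (Q := D.IsPosRoot) fun r hr => hr.1) (C.pos_le_borel.trans hB)
  obtain ⟨x, hx, l, hl, e⟩ := (Cert.mem_sup_of_normalised hn).mp hgK
  replace e : x * l = g := e
  have hl' : l ∈ D.unipotentRadical F J ⊓ D.leviSubgroup F J := by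
    refine Subgroup.mem_inf.mpr ⟨?_, ?_⟩
    · have : l = x⁻¹ * g := by rw [← e, inv_mul_cancel_left]
      rw [this]; exact mul_mem (inv_mem (hXR hx)) hg
    · rw [C.levi_eq]; exact Subgroup.mem_sup_right ((C.span_mono fun r hr => hr.2) hl)
  rw [C.radical_inf_levi, Subgroup.mem_bot] at hl'
  rw [← e, hl', mul_one]
  exact hx

end Cfsg.Agent.KnownA.Lie
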