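import Cfsg.Agent.KnownA.Lie.WeaklyClosed
import Cfsg.Agent.KnownA.Lie.GenerationCerts

/-! Weakly closed subgroups of `U` for the seven tabulated types. -/

set_option autoImplicit false

universe u

namespace Cfsg.Agent.KnownA.Lie

open Cfsg.Lie Cfsg.Agent.Chev
open scoped Matrix MatrixGroups

theorem torusSep_small {D : ChevalleyDatum} (hD : D ∈ [chevG2, chevB2, chevD4, chevF4]) :
    TorusSep D [1, -1, 2, -2] := by
  simp only [List.mem_cons, List.not_mem_nil, or_false] at hD
  rcases hD with rfl | rfl | rfl | rfl <;> decide +kernel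

theorem torusSep_E {D : ChevalleyDatum} (hD : D ∈ [chevE6, chevE7, chevE8]) : TorusSep D [1, -1] := by
  simp only [List.mem_cons, List.not_mem_nil, or_false] at hD
  rcases hD with rfl | rfl | rfl <;> decide +kernel

theorem weaklyClosed_of_mem {F : Type u} [Field F] [Fintype F] (D : ChevalleyDatum)
    (hD : D ∈ [chevG2, chevB2, chevD4, chevF4, chevE6, chevE7, chevE8])
    (h2 : Fintype.card F ≠ 2) (h3 : D ∈ [chevG2, chevB2, chevD4, chevF4] → Fintype.card F ≠ 3)
    (X : Subgroup (GL D.Idx F)) (hXU : X ≤ D.posUnipotent F)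
    (hwc : ∀ g ∈ D.group F, X.map (MulAut.conj g).toMonoidHom ≤ D.posUnipotent F →
      X.map (MulAut.conj g).toMonoidHom = X) :
    ∃ J : Set ℕ, (∀ j ∈ J, j < D.rank) ∧ X = D.unipotentRadical F J := by
  classical
  obtain ⟨C⟩ := nonempty_cert.{u} hD
  have hG := genCert_of_mem hD
  have h1F : 1 < Fintype.card F := Fintype.one_lt_card
  have hcard : (Finset.univ.erase (0 : F)).card = Fintype.card F - 1 := by
    rw [Finset.card_erase_of_mem (Finset.mem_univ _), Finset.card_univ]
  obtain ⟨s, hs0, hs1⟩ : ∃ s : F, s ≠ 0 ∧ s ≠ 1 := by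
    obtain ⟨s, hs, hs'⟩ := Finset.exists_mem_ne (s := Finset.univ.erase (0 : F)) (by omega) 1
    exact ⟨s, (Finset.mem_erase.mp hs).1, hs'⟩
  by_cases hE : D ∈ [chevE6, chevE7, chevE8]
  · refine weaklyClosed_radical C (torusSep_E hE) (fun d hd => ⟨s, hs0, ?_⟩)
      (fun φ r hr hns t => rootVal_nonsimple C φ hG hs0 hs1 (Or.inr (solo_of_E hE)) hr hns t) hXU hwc
    rcases List.mem_pair.mp hd with rfl | rfl <;> simp [hs1, inv_eq_one]
  · have hD' : D ∈ [chevG2, chevB2, chevD4, chevF4] := by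
      simp only [List.mem_cons, List.not_mem_nil, or_false] at hD hE ⊢; tauto
    have h4 : 4 ≤ Fintype.card F := by have := h3 hD'; omega
    obtain ⟨s', hs', hs'1⟩ := Finset.exists_mem_ne (s := (Finset.univ.erase (0 : F)).erase s)
      (by rw [Finset.card_erase_of_mem (Finset.mem_erase.mpr ⟨hs0, Finset.mem_univ _⟩)]; omega) 1
    simp only [Finset.mem_erase] at hs'
    refine weaklyClosed_radical C (torusSep_small hD') (fun d hd => ?_)
      (fun φ r hr hns t => rootVal_nonsimple C φ hG hs0 hs1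
        (Or.inl ⟨s', hs'.2.1, hs'1, hs'.1⟩) hr hns t) hXU hwc
    obtain ⟨c, hc0, hc1, hc2⟩ : ∃ c : F, c ≠ 0 ∧ c ≠ 1 ∧ c ^ 2 ≠ 1 := by
      by_contra hcon
      push Not at hcon
      have a := sq_eq_one_iff.mp (hcon s hs0 hs1)
      have b := sq_eq_one_iff.mp (hcon s' hs'.2.1 hs'1)
      exact hs'.1 ((b.resolve_left hs'1).trans (a.resolve_left hs1).symm)
    refine ⟨c, hc0, ?_⟩
    simp only [List.mem_cons, List.not_mem_nil, or_false] at hd
    rcases hd with rfl | rfl | rfl | rfl
    · simpa using hc1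
    · simpa [inv_eq_one] using hc1
    · exact_mod_cast hc2
    · rw [zpow_neg, ne_eq, inv_eq_one]; exact_mod_cast hc2

end Cfsg.Agent.KnownA.Lie
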